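import Cfsg.Agent.H880.TorF
import Cfsg.Agent.H103.Tor.Count

/-!
# S3235, row `PSU_n(q)` in cross characteristic: the irreducible case, III (for helper103)

* `count_irr` : `p = 2 m + 1` and `|K| ≤ |C(A)| ^ 2 (1 + q ^ (2 m))`;
* `false_of_five` : `m ≥ 5` is impossible.
-/

set_option autoImplicit false
set_option linter.unusedSectionVars false

namespace Cfsg.Agent.H880.Tor

open Matrix Subgroup Module Cfsg
open Cfsg.Agent.LieClassical.HermBasic Cfsg.Agent.LieClassical.HermSiegel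
open Cfsg.Agent.ClassicalGeometry.PSUAutBasic Cfsg.Agent.ClassicalGeometry.HermOrtho
open Cfsg.Agent.H880.Cl (toEnd toEnd_apply toEnd_injective quasi_two)
open Cfsg.Agent.H103.Tor (Pr Cm cj)

theorem prim_root {p : ℕ} (hp : p.Prime) : ∃ (s : ℕ) (u : (ZMod p)ˣ), (s : ZMod p) = u ∧ orderOf u = p - 1 ∧ ¬ p ∣ s := by
  have hpf := Fact.mk hp
  obtain ⟨u, hu⟩ := IsCyclic.exists_generator (α := (ZMod p)ˣ)
  have h1 := orderOf_eq_card_of_forall_mem_zpowers hu
  rw [Nat.card_eq_fintype_card, ZMod.card_units] at h1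
  have h2 : (((u : ZMod p).val : ℕ) : ZMod p) = u := ZMod.natCast_zmod_val _
  refine ⟨(u : ZMod p).val, u, h2, h1, ?_⟩
  intro hd
  rw [← ZMod.natCast_eq_zero_iff, h2] at hd
  exact u.ne_zero hd

section Irr

variable {F : Type} [Field F] [Fintype F] {q m : ℕ}

theorem count_irr (hF : Fintype.card F = q ^ 2) (hm : 2 ≤ m) {r : ℕ} [Fact r.Prime] [CharP F r] {p : ℕ}
    (hp : p.Prime) (hp5 : 5 ≤ p) (hrp : r ≠ p) {T : SU m F q} (hTp : T ^ p = 1) (h : Pr p (zpowers (pr m F q T)))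
    (hs : Irr (toEnd m F q T)) :
    p = 2 * m + 1 ∧ Nat.card (PSU m F q) ≤
      Nat.card (centralizer ((zpowers (pr m F q T) : Subgroup (PSU m F q)) : Set (PSU m F q))) ^ 2 *
        (1 + (q ^ 2) ^ m) := by
  classical
  have hpf := Fact.mk hp
  have hne : Nonempty (Fin m) := ⟨⟨0, by omega⟩⟩
  obtain ⟨hT, -⟩ := orderOf_eq hp hTp h
  obtain ⟨x₀, hx₀⟩ := exists_nc hF hm hp hp5 h
  obtain ⟨s, u, hsu, hu, hps⟩ := prim_root hp
  obtain ⟨t, ht, -, -, hcard⟩ := h.count_sq hp hp5 hx₀ s hps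
  obtain ⟨x, rfl⟩ := pr_surjective t
  have hx : x * T * x⁻¹ = T ^ (s ^ 2) := by
    apply eq_pow_of_pr hF hm hp hrp hTp h hs
    rw [map_mul, map_mul, map_inv, ht _ (mem_zpowers _), map_pow]
  obtain ⟨N, hN⟩ : ∃ N, p = 2 * N + 1 := by
    rcases hp.eq_two_or_odd' with h1 | ⟨k, hk⟩
    · omega
    · exact ⟨k, hk⟩
  have hinj : ∀ i < N, ∀ j < N, toEnd m F q T ^ (s ^ 2) ^ i = toEnd m F q T ^ (s ^ 2) ^ j → i = j := by
    intro i hi j hj hij
    rw [← map_pow, ← map_pow] at hij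
    have h1 := toEnd_injective hij
    rw [pow_eq_pow_iff_modEq, hT, ← ZMod.natCast_eq_natCast_iff, ← pow_mul, ← pow_mul, Nat.cast_pow, Nat.cast_pow,
      hsu, ← Units.val_pow_eq_pow_val, ← Units.val_pow_eq_pow_val] at h1
    have h2 := pow_injOn_Iio_orderOf (x := u) (show 2 * i < orderOf u by omega) (show 2 * j < orderOf u by omega)
      (Units.ext h1)
    omega
  have hxT : toEnd m F q x * toEnd m F q T = toEnd m F q T ^ (s ^ 2) * toEnd m F q x := by
    rw [← map_mul, ← map_pow, ← map_mul, ← hx, inv_mul_cancel_right]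
  have h1 := natDegree_ge hs hxT (y := toEnd m F q x⁻¹) (by rw [← map_mul, mul_inv_cancel, map_one]) hinj
  have h2 : (minpoly F (toEnd m F q x)).natDegree ≤ m := by
    have h3 := Polynomial.natDegree_le_of_dvd (LinearMap.minpoly_dvd_charpoly (toEnd m F q x))
      (LinearMap.charpoly_monic _).ne_zero
    rwa [LinearMap.charpoly_natDegree, finrank_fin_fun] at h3
  have h3 : m ≤ N := by
    by_contra hlt
    push Not at hlt
    refine not_dvd hF hm hp hrp hTp h hs N (by omega) hlt ?_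
    have h4 : ((q : ℕ) : ZMod p) ≠ 0 := by
      rw [Ne, ZMod.natCast_eq_zero_iff]
      exact not_dvd_q hF hp hrp
    have h5 := ZMod.pow_card_sub_one_eq_one h4
    rw [← ZMod.natCast_eq_zero_iff, Nat.cast_sub (Nat.one_le_pow _ _ (by
      have := two_le hF
      positivity)), Nat.cast_pow, Nat.cast_pow, Nat.cast_one, ← pow_mul]
    have h6 : 2 * N = p - 1 := by omega
    rw [h6, h5, sub_self]
  have h4 : m = N := by omega
  refine ⟨by omega, le_trans hcard ?_⟩
  refine Nat.mul_le_mul_left _ (Nat.add_le_add_left ?_ 1)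
  refine le_trans (card_centralizer_le pr_surjective x) ?_
  obtain ⟨v, hv⟩ := exists_cyclic (x := toEnd m F q x) (by rw [finrank_fin_fun]; omega)
  have h5 : Nat.card (Fin m → F) = (q ^ 2) ^ m := by
    rw [Nat.card_eq_fintype_card, Fintype.card_fun, Fintype.card_fin, hF]
  rw [← h5]
  apply Nat.card_le_card_of_injective (fun y : centralizer ({x} : Set (SU m F q)) => act (y : SU m F q) v)
  intro y z hyz
  have hy := mem_centralizer_singleton_iff.1 y.2
  have hz := mem_centralizer_singleton_iff.1 z.2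
  have h6 : toEnd m F q y - toEnd m F q z = 0 := by
    apply hv
    · rw [sub_mul, mul_sub, ← map_mul, ← map_mul, ← map_mul, ← map_mul, hy, hz]
    · rw [LinearMap.sub_apply, toEnd_apply, toEnd_apply]
      exact sub_eq_zero.2 hyz
  exact Subtype.ext (toEnd_injective (sub_eq_zero.1 h6))

/-- a lower bound for `|GU_m(q)|`, `m` odd -/
theorem card_GU_ge (hF : Fintype.card F = q ^ 2) (k : ℕ) : q ^ ((2 * k + 1) ^ 2) ≤ Nat.card (GU (2 * k + 1) F q) := by
  have hq2 := two_le hF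
  rw [Cfsg.Agent.S0277.result hF]
  have h1 : ∀ k : ℕ, q ^ (k * (2 * k + 1)) ≤
      ∏ i ∈ Finset.range (2 * k), (if Even i then q ^ (i + 1) + 1 else q ^ (i + 1) - 1) := by
    intro k
    induction k with
    | zero => simp
    | succ k ih =>
      have e : 2 * (k + 1) = 2 * k + 1 + 1 := by ring
      rw [e, Finset.prod_range_succ, Finset.prod_range_succ, if_pos (even_two_mul k),
        if_neg (by rw [Nat.not_even_iff_odd]; exact ⟨k, rfl⟩)]
      have h2 : q ^ (4 * k + 3) ≤ (q ^ (2 * k + 1) + 1) * (q ^ (2 * k + 1 + 1) - 1) := by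
        have h3 : q ^ (4 * k + 3) = q ^ (2 * k + 1) * q ^ (2 * k + 1 + 1) := by rw [← pow_add]; congr 1; ring
        have h4 : q ^ (2 * k + 1) + 1 ≤ q ^ (2 * k + 1 + 1) := by
          rw [pow_succ q (2 * k + 1)]
          have h5 : 1 ≤ q ^ (2 * k + 1) := Nat.one_le_pow _ _ (by omega)
          nlinarith
        rw [h3]
        obtain ⟨b, hb⟩ := Nat.exists_eq_add_of_le h4
        rw [hb]
        have h6 : q ^ (2 * k + 1) + 1 + b - 1 = q ^ (2 * k + 1) + b := by omega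
        rw [h6]
        nlinarith
      calc q ^ ((k + 1) * (2 * k + 1 + 1 + 1)) = q ^ (k * (2 * k + 1)) * q ^ (4 * k + 3) := by
            rw [← pow_add]; congr 1; ring
        _ ≤ _ := by rw [mul_assoc]; exact Nat.mul_le_mul ih h2
  rw [Finset.prod_range_succ, if_pos (even_two_mul k)]
  have h2 : (2 * k + 1) * (2 * k + 1 - 1) / 2 = (2 * k + 1) * k := by
    rw [Nat.add_sub_cancel]
    have : (2 * k + 1) * (2 * k) = 2 * ((2 * k + 1) * k) := by ring
    rw [this, Nat.mul_div_cancel_left _ (by norm_num)]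
  rw [h2]
  calc q ^ ((2 * k + 1) ^ 2) = q ^ ((2 * k + 1) * k) * (q ^ (k * (2 * k + 1)) * q ^ (2 * k + 1)) := by
        rw [← pow_add, ← pow_add]; congr 1; ring
    _ ≤ _ := Nat.mul_le_mul_left _ (Nat.mul_le_mul (h1 k) (Nat.le_succ _))

theorem false_of_five (hF : Fintype.card F = q ^ 2) (hm : 5 ≤ m) {r : ℕ} [Fact r.Prime] [CharP F r] {p : ℕ}
    (hp : p.Prime) (hp5 : 5 ≤ p) (hrp : r ≠ p) {T : SU m F q} (hTp : T ^ p = 1) (h : Pr p (zpowers (pr m F q T)))
    (hs : Irr (toEnd m F q T)) : False := by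
  have hq2 := two_le hF
  obtain ⟨hev, -, hC⟩ := odd_dvd hF (by omega) hp hrp hTp h hs
  obtain ⟨-, hcard⟩ := count_irr hF (by omega) hp hp5 hrp hTp h hs
  have hcent := card_cent hF (by omega) hp hrp hTp h hs
  have hC' : Nat.card (centralizer ({T} : Set (SU m F q))) ≤ q ^ m + 1 := Nat.le_of_dvd (Nat.succ_pos _) hC
  obtain ⟨k, rfl⟩ : ∃ k, m = 2 * k + 1 := Nat.not_even_iff_odd.1 hev
  have hge := card_GU_ge hF k
  rw [Cfsg.Agent.LieClassical.GUOrder.card_GU_eq hF (by omega)] at hge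
  have hsu : Nat.card (SU (2 * k + 1) F q) = Nat.card (PSU (2 * k + 1) F q) * Nat.card (pr (2 * k + 1) F q).ker := by
    have h1 := card_comap (f := pr (2 * k + 1) F q) pr_surjective ⊤
    rwa [comap_top, Subgroup.card_top, Subgroup.card_top] at h1
  set c := Nat.card (centralizer ((zpowers (pr (2 * k + 1) F q T) : Subgroup (PSU (2 * k + 1) F q)) :
    Set (PSU (2 * k + 1) F q))) with hc
  set z := Nat.card (pr (2 * k + 1) F q).ker with hz
  have hzpos : 0 < z := Nat.card_pos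
  set Q := q ^ (2 * k + 1) with hQ
  have h1 : Nat.card (SU (2 * k + 1) F q) ≤ (Q + 1) ^ 2 * (1 + Q ^ 2) := by
    rw [hsu]
    have h2 : (q ^ 2) ^ (2 * k + 1) = Q ^ 2 := by rw [hQ, ← pow_mul, ← pow_mul, mul_comm]
    rw [h2] at hcard
    have h3 : c ≤ Q + 1 := le_trans (by rw [← hcent]; exact Nat.le_mul_of_pos_right _ hzpos) hC'
    calc Nat.card (PSU (2 * k + 1) F q) * z ≤ c ^ 2 * (1 + Q ^ 2) * z := Nat.mul_le_mul_right _ hcard
      _ = c * (c * z) * (1 + Q ^ 2) := by ring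
      _ ≤ (Q + 1) * (Q + 1) * (1 + Q ^ 2) := by
          refine Nat.mul_le_mul_right _ (Nat.mul_le_mul h3 ?_)
          rw [hcent]; exact hC'
      _ = _ := by ring
  have h2 : q ^ ((2 * k + 1) ^ 2) ≤ (q + 1) * ((Q + 1) ^ 2 * (1 + Q ^ 2)) := le_trans hge (Nat.mul_le_mul_left _ h1)
  have hQ1 : 2 ≤ Q := by
    rw [hQ]
    calc 2 ≤ q := hq2
      _ = q ^ 1 := (pow_one q).symm
      _ ≤ q ^ (2 * k + 1) := Nat.pow_le_pow_right (by omega) (by omega)
  have h3 : (q + 1) * ((Q + 1) ^ 2 * (1 + Q ^ 2)) < q ^ 5 * Q ^ 4 := by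
    have k1 : q + 1 < q ^ 2 := by nlinarith
    have k2 : Q + 1 ≤ q * Q := by nlinarith
    have k3 : 1 + Q ^ 2 ≤ q * Q ^ 2 := by nlinarith
    calc (q + 1) * ((Q + 1) ^ 2 * (1 + Q ^ 2)) < q ^ 2 * ((Q + 1) ^ 2 * (1 + Q ^ 2)) :=
          Nat.mul_lt_mul_of_pos_right k1 (by positivity)
      _ ≤ q ^ 2 * ((q * Q) ^ 2 * (q * Q ^ 2)) :=
          Nat.mul_le_mul_left _ (Nat.mul_le_mul (Nat.pow_le_pow_left k2 2) k3)
      _ = q ^ 5 * Q ^ 4 := by ring
  have h4 : q ^ 5 * Q ^ 4 ≤ q ^ ((2 * k + 1) ^ 2) := by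
    rw [hQ, ← pow_mul, ← pow_add]
    apply Nat.pow_le_pow_right (by omega)
    nlinarith
  omega

end Irr

end Cfsg.Agent.H880.Tor
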