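import Cfsg.Agent.H880.TorG

/-!
# S3235, row `PSU_n(q)` in cross characteristic: `PSU_3(q)`, `p = 7` (for helper103)

* `refl` : an isometric involution with a one-dimensional space of fixed vectors is minus a reflection;
* `card_inv` : `(q + 1) #{involutions of SU_3(q)} ≤ q² (q³ + 1)` for odd `q`;
* `false_of_three` : `m = 3` is impossible.
-/

set_option autoImplicit false
set_option linter.unusedSectionVars false

namespace Cfsg.Agent.H880.Tor

open Matrix Subgroup Module Cfsg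
open Cfsg.Agent.LieClassical.HermBasic Cfsg.Agent.LieClassical.HermSiegel
open Cfsg.Agent.ClassicalGeometry.PSUAutBasic Cfsg.Agent.ClassicalGeometry.HermOrtho
open Cfsg.Agent.H880.Cl (toEnd toEnd_apply toEnd_injective quasi_two isCyclic_of_comm mem_zpowers_of_cyclic)
open Cfsg.Agent.H103.Tor (Pr Cm cj)

section Refl

variable {F : Type*} [Field F] [Fintype F] {q n : ℕ}

/-- minus a reflection -/
theorem refl (hF : Fintype.card F = q ^ 2) (h2 : (2 : F) ≠ 0) {S : Module.End F (Fin n → F)}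
    (hS : ∀ u v, hermForm n F q (S u) (S v) = hermForm n F q u v) (hSS : ∀ v, S (S v) = v)
    (h1 : finrank F (LinearMap.ker (S - 1)) = 1) :
    ∃ v, hermForm n F q v v = 1 ∧ ∀ w, S w = (2 * hermForm n F q w v) • v - w := by
  have hmem : ∀ u, u ∈ LinearMap.ker (S - 1) ↔ S u = u := by
    intro u
    rw [LinearMap.mem_ker, LinearMap.sub_apply, Module.End.one_apply, sub_eq_zero]
  have hadd : ∀ w, w + S w ∈ LinearMap.ker (S - 1) := by
    intro w
    rw [hmem, map_add, hSS, add_comm]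
  have hnd : ∀ u ∈ LinearMap.ker (S - 1), (∀ v ∈ LinearMap.ker (S - 1), hermForm n F q u v = 0) → u = 0 := by
    intro u hu huv
    apply herm_nondeg hF
    intro w
    have h3 := huv _ (hadd w)
    have h4 := hS u w
    rw [(hmem u).1 hu] at h4
    rw [herm_add_right hF, h4] at h3
    have h5 : 2 * hermForm n F q u w = 0 := by rw [two_mul]; exact h3
    exact (mul_eq_zero.1 h5).resolve_left h2
  have hne : LinearMap.ker (S - 1) ≠ ⊥ := by
    intro h
    rw [h, finrank_bot] at h1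
    exact zero_ne_one h1
  obtain ⟨v, hv, hvv⟩ := exists_norm_one_vector hF _ hnd hne
  have hv0 : v ≠ 0 := by
    rintro rfl
    rw [herm_zero_left] at hvv
    exact zero_ne_one hvv
  refine ⟨v, hvv, fun w => ?_⟩
  have h3 := (finrank_eq_one_iff_of_nonzero' (⟨v, hv⟩ : LinearMap.ker (S - 1))
    (fun h => hv0 (congrArg Subtype.val h))).1 h1
  obtain ⟨c, hc⟩ := h3 ⟨w + S w, hadd w⟩
  have hc' : c • v = w + S w := congrArg Subtype.val hc
  have h4 : hermForm n F q (w + S w) v = c := by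
    rw [← hc', herm_smul_left, hvv, mul_one]
  have h5 : hermForm n F q (S w) v = hermForm n F q w v := by
    have := hS w v
    rwa [(hmem v).1 hv] at this
  rw [herm_add_left, h5, ← two_mul] at h4
  rw [h4, hc']
  abel

end Refl

section Three

variable {F : Type*} [Field F] [Fintype F] {q : ℕ}

/-- the scalar `-1` is not in `SU_3(q)`, `q` odd -/
theorem ne_neg (h2 : (2 : F) ≠ 0) {y z : SU 3 F q} (h : ∀ w, act y w = -act z w) : False := by
  have h1 : mat y = -mat z := by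
    apply Matrix.ext_of_mulVec_single
    intro i
    have := h (Pi.single i 1)
    rw [act_def, act_def] at this
    rw [this, Matrix.neg_mulVec]
  have h3 := det_mat y
  rw [h1, Matrix.det_neg, det_mat, Fintype.card_fin] at h3
  apply h2
  linear_combination -h3

/-- involutions of `SU_3(q)` -/
theorem inv_form (hF : Fintype.card F = q ^ 2) (h2 : (2 : F) ≠ 0) {y : SU 3 F q} (hy : y ^ 2 = 1) (hy1 : y ≠ 1) :
    ∃ (v : Fin 3 → F), hermForm 3 F q v v = 1 ∧
      ((∀ w, act y w = (2 * hermForm 3 F q w v) • v - w) ∨ (∀ w, act y w = -((2 * hermForm 3 F q w v) • v - w))) := by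
  have hyy : ∀ v, act y (act y v) = v := by
    intro v
    rw [← act_mul, ← sq, hy, act_one]
  set S := toEnd 3 F q y with hS
  have hSw : ∀ w, S w = act y w := fun w => rfl
  have hm1 : ∀ u, u ∈ LinearMap.ker (S - 1) ↔ act y u = u := by
    intro u
    rw [LinearMap.mem_ker, LinearMap.sub_apply, Module.End.one_apply, sub_eq_zero, hSw]
  have hm2 : ∀ u, u ∈ LinearMap.ker (-S - 1) ↔ act y u = -u := by
    intro u
    rw [LinearMap.mem_ker, LinearMap.sub_apply, Module.End.one_apply, sub_eq_zero, LinearMap.neg_apply, hSw,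
      neg_eq_iff_eq_neg]
  have hc : IsCompl (LinearMap.ker (S - 1)) (LinearMap.ker (-S - 1)) := by
    constructor
    · rw [Submodule.disjoint_def]
      intro u h3 h4
      rw [hm1] at h3
      rw [hm2, h3] at h4
      have h5 : (2 : F) • u = 0 := by
        rw [two_smul]
        nth_rewrite 1 [h4]
        exact neg_add_cancel u
      exact (smul_eq_zero.1 h5).resolve_left h2
    · rw [codisjoint_iff, eq_top_iff]
      intro w _
      have h3 : w = (2 : F)⁻¹ • (w + act y w) + (2 : F)⁻¹ • (w - act y w) := by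
        rw [← smul_add]
        have h4 : w + act y w + (w - act y w) = (2 : F) • w := by rw [two_smul]; abel
        rw [h4, inv_smul_smul₀ h2]
      rw [h3]
      refine Submodule.add_mem_sup (Submodule.smul_mem _ _ ?_) (Submodule.smul_mem _ _ ?_)
      · rw [hm1, act_add, hyy, add_comm]
      · rw [hm2, act_sub, hyy, neg_sub]
  have hdim := Submodule.finrank_add_eq_of_isCompl hc
  rw [finrank_fin_fun] at hdim
  have hne1 : finrank F (LinearMap.ker (S - 1)) ≠ 0 := by
    intro h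
    rw [Submodule.finrank_eq_zero] at h
    apply ne_neg h2 (y := y) (z := 1)
    intro w
    have h3 : w + act y w ∈ LinearMap.ker (S - 1) := by rw [hm1, act_add, hyy, add_comm]
    rw [h, Submodule.mem_bot] at h3
    rw [act_one]
    exact eq_neg_of_add_eq_zero_right h3
  have hne2 : finrank F (LinearMap.ker (-S - 1)) ≠ 0 := by
    intro h
    rw [Submodule.finrank_eq_zero] at h
    apply hy1
    apply ext_act
    intro w
    have h3 : w - act y w ∈ LinearMap.ker (-S - 1) := by rw [hm2, act_sub, hyy, neg_sub]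
    rw [h, Submodule.mem_bot] at h3
    rw [act_one]
    exact (sub_eq_zero.1 h3).symm
  have hiso : ∀ u v, hermForm 3 F q (act y u) (act y v) = hermForm 3 F q u v := herm_act y
  rcases (show finrank F (LinearMap.ker (S - 1)) = 1 ∨ finrank F (LinearMap.ker (-S - 1)) = 1 by omega) with h | h
  · obtain ⟨v, hv, hw⟩ := refl hF h2 (S := S) hiso hyy h
    exact ⟨v, hv, Or.inl hw⟩
  · obtain ⟨v, hv, hw⟩ := refl hF h2 (S := -S) (by
      intro u v
      rw [LinearMap.neg_apply, LinearMap.neg_apply, herm_neg_left, herm_neg_right hF, neg_neg]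
      exact hiso u v) (by
      intro v
      rw [LinearMap.neg_apply, LinearMap.neg_apply, map_neg, neg_neg]
      exact hyy v) h
    refine ⟨v, hv, Or.inr fun w => ?_⟩
    have h3 := hw w
    rw [LinearMap.neg_apply, hSw] at h3
    rw [← h3, neg_neg]

theorem card_inv (hF : Fintype.card F = q ^ 2) (h2 : (2 : F) ≠ 0) :
    (q + 1) * Nat.card {y : SU 3 F q // y ^ 2 = 1 ∧ y ≠ 1} ≤ q ^ 2 * (q ^ 3 + 1) := by
  classical
  have h0 := LieClassical.HermCount.card_norm_one hF 3
  rw [if_neg (by decide)] at h0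
  rw [show q ^ 2 * (q ^ 3 + 1) = q ^ (3 - 1) * (q ^ 3 + 1) from rfl, ← h0,
    ← Cfsg.Agent.LieClassical.GUOrder.card_ker_pow hF, ← Nat.card_prod]
  choose v hv hvw using fun y : {y : SU 3 F q // y ^ 2 = 1 ∧ y ≠ 1} => inv_form hF h2 y.2.1 y.2.2
  have hnorm : ∀ c : (powMonoidHom (q + 1) : Fˣ →* Fˣ).ker, ((c : Fˣ) : F) * ((c : Fˣ) : F) ^ q = 1 := by
    intro c
    have h3 := c.2
    rw [MonoidHom.mem_ker, powMonoidHom_apply] at h3
    rw [← pow_succ', ← Units.val_pow_eq_pow_val, h3, Units.val_one]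
  apply Nat.card_le_card_of_injective
    (fun x : (powMonoidHom (q + 1) : Fˣ →* Fˣ).ker × {y : SU 3 F q // y ^ 2 = 1 ∧ y ≠ 1} =>
      (⟨((x.1 : Fˣ) : F) • v x.2, by
        rw [herm_smul_left, herm_smul_right, hv, mul_one, hnorm]⟩ :
        {v : Fin 3 → F // hermForm 3 F q v v = 1}))
  rintro ⟨c, y⟩ ⟨c', y'⟩ hcy
  have h3 : ((c : Fˣ) : F) • v y = ((c' : Fˣ) : F) • v y' := congrArg Subtype.val hcy
  have h4 : ∀ w, (2 * hermForm 3 F q w (v y)) • v y = (2 * hermForm 3 F q w (v y')) • v y' := by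
    intro w
    have k1 : ∀ (c : (powMonoidHom (q + 1) : Fˣ →* Fˣ).ker) (u : Fin 3 → F),
        (2 * hermForm 3 F q w (((c : Fˣ) : F) • u)) • (((c : Fˣ) : F) • u) = (2 * hermForm 3 F q w u) • u := by
      intro c u
      rw [herm_smul_right, smul_smul]
      congr 1
      linear_combination (2 * hermForm 3 F q w u) * hnorm c
    rw [← k1 c (v y), h3, k1]
  have h5 : y = y' := by
    rcases hvw y with h6 | h6 <;> rcases hvw y' with h7 | h7
    · apply Subtype.ext
      apply ext_act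
      intro w
      rw [h6, h7, h4]
    · exact (ne_neg h2 (y := y.1) (z := y'.1) fun w => by rw [h6, h7, h4, neg_neg]).elim
    · exact (ne_neg h2 (y := y.1) (z := y'.1) fun w => by rw [h6, h7, h4]).elim
    · apply Subtype.ext
      apply ext_act
      intro w
      rw [h6, h7, h4]
  subst h5
  have hv0 : v y ≠ 0 := by
    intro h
    have h6 := hv y
    rw [h, herm_zero_left] at h6
    exact zero_ne_one h6
  have h6 : ((c : Fˣ) : F) = ((c' : Fˣ) : F) := by
    have h7 : (((c : Fˣ) : F) - ((c' : Fˣ) : F)) • v y = 0 := by rw [sub_smul, h3, sub_self]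
    exact sub_eq_zero.1 ((smul_eq_zero.1 h7).resolve_right hv0)
  have h7 : c = c' := Subtype.ext (Units.ext h6)
  rw [h7]

theorem card_sq (hF : Fintype.card F = q ^ 2) (h2 : (2 : F) ≠ 0) :
    (q + 1) * Nat.card {y : SU 3 F q // y ^ 2 = 1} ≤ (q + 1) + q ^ 2 * (q ^ 3 + 1) := by
  classical
  have h1 : Nat.card {y : SU 3 F q // y ^ 2 = 1} ≤ 1 + Nat.card {y : SU 3 F q // y ^ 2 = 1 ∧ y ≠ 1} := by
    have : Fintype (SU 3 F q) := Fintype.ofFinite _
    rw [Nat.card_eq_fintype_card, Nat.card_eq_fintype_card, Fintype.card_subtype, Fintype.card_subtype]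
    have h3 : (Finset.univ.filter fun y : SU 3 F q => y ^ 2 = 1) ⊆
        insert 1 (Finset.univ.filter fun y : SU 3 F q => y ^ 2 = 1 ∧ y ≠ 1) := by
      intro y hy
      rw [Finset.mem_filter] at hy
      rw [Finset.mem_insert, Finset.mem_filter]
      by_cases h : y = 1
      · exact Or.inl h
      · exact Or.inr ⟨Finset.mem_univ _, hy.2, h⟩
    refine le_trans (Finset.card_le_card h3) ?_
    rw [add_comm]
    exact Finset.card_insert_le _ _
  calc (q + 1) * Nat.card {y : SU 3 F q // y ^ 2 = 1}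
      ≤ (q + 1) * (1 + Nat.card {y : SU 3 F q // y ^ 2 = 1 ∧ y ≠ 1}) := Nat.mul_le_mul_left _ h1
    _ = (q + 1) + (q + 1) * Nat.card {y : SU 3 F q // y ^ 2 = 1 ∧ y ≠ 1} := by ring
    _ ≤ _ := Nat.add_le_add_left (card_inv hF h2) _

/-- central elements of `SU_3(q)` have order dividing three -/
theorem center_cube (hF : Fintype.card F = q ^ 2) {z : SU 3 F q} (hz : z ∈ center (SU 3 F q)) : z ^ 3 = 1 := by
  obtain ⟨c, hc3, hcq, rfl⟩ := (Cfsg.Agent.LieClassical.SUBasic.mem_center_SU_iff hF le_rfl z).1 hz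
  apply ext_act
  intro v
  rw [pow_succ, pow_succ, pow_one, act_mul, act_mul, act_suScalar hc3 hcq, act_suScalar hc3 hcq,
    act_suScalar hc3 hcq, smul_smul, smul_smul, act_one]
  have h3 : c * c * c = 1 := by rw [← hc3]; ring
  rw [h3, one_smul]

/-- lifting of square roots of one -/
theorem lift_sq (hF : Fintype.card F = q ^ 2) {x : PSU 3 F q} (hx : x ^ 2 = 1) :
    ∃ y : SU 3 F q, y ^ 2 = 1 ∧ pr 3 F q y = x := by
  obtain ⟨y, rfl⟩ := pr_surjective x
  have hz : y ^ 2 ∈ center (SU 3 F q) := by rw [← pr_eq_one_iff, map_pow, hx]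
  have hz3 := center_cube hF hz
  refine ⟨y * y ^ 2, ?_, ?_⟩
  · calc (y * y ^ 2) ^ 2 = (y ^ 2) ^ 3 := by group
      _ = 1 := hz3
  · rw [map_mul, map_pow, hx, mul_one]

theorem card_sq_psu (hF : Fintype.card F = q ^ 2) (h2 : (2 : F) ≠ 0) :
    (q + 1) * Nat.card {x : PSU 3 F q // x ^ 2 = 1} ≤ (q + 1) + q ^ 2 * (q ^ 3 + 1) := by
  refine le_trans (Nat.mul_le_mul_left _ ?_) (card_sq hF h2)
  apply Nat.card_le_card_of_surjective
    (fun y : {y : SU 3 F q // y ^ 2 = 1} => (⟨pr 3 F q y.1, by rw [← map_pow, y.2, map_one]⟩ :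
      {x : PSU 3 F q // x ^ 2 = 1}))
  rintro ⟨x, hx⟩
  obtain ⟨y, hy, rfl⟩ := lift_sq hF hx
  exact ⟨⟨y, hy⟩, rfl⟩

end Three

section Main

variable {F : Type} [Field F] [Fintype F] {q : ℕ}

theorem false_of_three (hF : Fintype.card F = q ^ 2) {r : ℕ} [Fact r.Prime] [CharP F r] {p : ℕ}
    (hp : p.Prime) (hp5 : 5 ≤ p) (hrp : r ≠ p) {T : SU 3 F q} (hTp : T ^ p = 1) (h : Pr p (zpowers (pr 3 F q T)))
    (hs : Irr (toEnd 3 F q T)) : False := by
  classical
  have hq2 := two_le hF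
  have hne : Nonempty (Fin 3) := ⟨⟨0, by omega⟩⟩
  obtain ⟨hT, hT'⟩ := orderOf_eq hp hTp h
  obtain ⟨-, hpq, hC⟩ := odd_dvd hF (by omega) hp hrp hTp h hs
  obtain ⟨hp7, -⟩ := count_irr hF (by omega) hp hp5 hrp hTp h hs
  have hp7' : p = 7 := by omega
  subst hp7'
  -- `q` is odd
  have hr : r.Prime := Fact.out
  have h2 : (2 : F) ≠ 0 := by
    intro h0
    have h1 : ((2 : ℕ) : F) = 0 := by exact_mod_cast h0
    rw [CharP.cast_eq_zero_iff F r 2] at h1
    have hr2 : r = 2 := (Nat.prime_dvd_prime_iff_eq hr Nat.prime_two).1 h1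
    subst hr2
    obtain ⟨f, -, hf⟩ := FiniteField.card F 2
    have h3 : q ∣ 2 ^ (f : ℕ) := by rw [← hf, hF]; exact dvd_pow_self q two_ne_zero
    obtain ⟨a, -, ha⟩ := (Nat.dvd_prime_pow Nat.prime_two).1 h3
    rw [ha, ← pow_mul, mul_comm, pow_mul] at hpq
    have h4 : ((2 ^ 3) ^ a + 1) % 7 = 2 := by
      rw [Nat.add_mod, Nat.pow_mod]
      norm_num
    omega
  have hcent := card_cent hF (by omega) hp hrp hTp h hs
  have hnorm := card_norm hF (by omega) hp hrp hTp h hs
  have hcomap := comap_centralizer hF (by omega) hp hrp hTp h hs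
  have hC' : Nat.card (centralizer ({T} : Set (SU 3 F q))) ≤ q ^ 3 + 1 := Nat.le_of_dvd (Nat.succ_pos _) hC
  have hmemC : ∀ y : SU 3 F q, pr 3 F q y ∈ centralizer ((zpowers (pr 3 F q T) : Subgroup (PSU 3 F q)) :
      Set (PSU 3 F q)) → y * T = T * y := by
    intro y hy
    rw [← mem_comap, hcomap, mem_centralizer_singleton_iff] at hy
    exact hy
  have hcyc : IsCyclic (centralizer ({T} : Set (SU 3 F q))) := by
    refine isCyclic_of_comm (toEnd 3 F q T) hs ((toEnd 3 F q).comp (centralizer ({T} : Set (SU 3 F q))).subtype)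
      (toEnd_injective.comp Subtype.val_injective) ?_
    rintro ⟨g, hg⟩
    rw [mem_centralizer_singleton_iff] at hg
    show toEnd 3 F q g * toEnd 3 F q T = toEnd 3 F q T * toEnd 3 F q g
    rw [← map_mul, hg, map_mul]
  have hinv := h.count_inv hp hp5 (by
    intro x hx hx7
    obtain ⟨y, rfl⟩ := pr_surjective x
    have hy := hmemC y hx
    have hz : y ^ 7 ∈ center (SU 3 F q) := by rw [← pr_eq_one_iff, map_pow, hx7]
    have hz3 := center_cube hF hz
    -- `(y * (y ^ 7)⁻¹) ^ 7 = 1`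
    have h1 : (y * (y ^ 7)⁻¹) ^ 7 = 1 := by
      calc (y * (y ^ 7)⁻¹) ^ 7 = (((y ^ 7) ^ 3) ^ 2)⁻¹ := by group
        _ = 1 := by rw [hz3, one_pow, inv_one]
    have h3 : pr 3 F q (y * (y ^ 7)⁻¹) = pr 3 F q y := by rw [map_mul, map_inv, map_pow, hx7, inv_one, mul_one]
    rw [← h3]
    have hyC : y * (y ^ 7)⁻¹ ∈ centralizer ({T} : Set (SU 3 F q)) := by
      have hyC : y ∈ centralizer ({T} : Set (SU 3 F q)) := mem_centralizer_singleton_iff.2 hy
      exact mul_mem hyC (inv_mem (pow_mem hyC 7))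
    have hTC : T ∈ centralizer ({T} : Set (SU 3 F q)) := mem_centralizer_singleton_iff.2 rfl
    obtain ⟨k, hk⟩ := mem_zpowers_of_cyclic (C := centralizer ({T} : Set (SU 3 F q))) (x := ⟨_, hyC⟩)
      (z := ⟨T, hTC⟩) (p := 7) (by norm_num) (Subtype.ext h1) (by rw [← Subgroup.orderOf_coe]; exact hT)
    have hk' : T ^ k = y * (y ^ 7)⁻¹ := congrArg Subtype.val hk
    rw [← hk', map_zpow]
    exact ⟨k, rfl⟩) (by
    intro x hx hx2
    obtain ⟨y, hy2, rfl⟩ := lift_sq hF hx2
    have hy := hmemC y hx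
    have h1 : (toEnd 3 F q y - 1) * (toEnd 3 F q y + 1) = 0 := by
      have h3 : toEnd 3 F q y * toEnd 3 F q y = 1 := by rw [← map_mul, ← sq, hy2, map_one]
      rw [sub_mul, mul_add, h3, one_mul, mul_one]
      abel
    have h3 : (toEnd 3 F q y - 1) * toEnd 3 F q T = toEnd 3 F q T * (toEnd 3 F q y - 1) := by
      rw [sub_mul, mul_sub, ← map_mul, ← map_mul, hy, one_mul, mul_one]
    rcases schur_mul hs h3 h1 with h4 | h4
    · have h5 : y = 1 := toEnd_injective (by rw [sub_eq_zero.1 h4, map_one])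
      rw [h5, map_one]
    · exfalso
      apply ne_neg h2 (y := y) (z := 1)
      intro w
      have h5 := congrArg (fun S => S w) (eq_neg_of_add_eq_zero_left h4)
      have h6 : act y w = -w := h5
      rw [h6, act_one])
  have hsq := card_sq_psu hF h2
  have hsu : Nat.card (SU 3 F q) = Nat.card (PSU 3 F q) * Nat.card (pr 3 F q).ker := by
    have h1 := card_comap (f := pr 3 F q) pr_surjective ⊤
    rwa [comap_top, Subgroup.card_top, Subgroup.card_top] at h1
  have hgu := Cfsg.Agent.LieClassical.GUOrder.card_GU_eq hF (n := 3) (by omega)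
  rw [Cfsg.Agent.S0277.result hF] at hgu
  norm_num [Finset.prod_range_succ, -Nat.card_eq_fintype_card] at hgu
  set z := Nat.card (pr 3 F q).ker with hz
  set W := Nat.card {x : PSU 3 F q // x ^ 2 = 1} with hW
  set N := Nat.card (normalizer ((zpowers (pr 3 F q T) : Subgroup (PSU 3 F q)) : Set (PSU 3 F q))) with hN
  have h5 : Nat.card (SU 3 F q) ≤ 3 * (q ^ 3 + 1) * W := by
    rw [hsu]
    calc Nat.card (PSU 3 F q) * z ≤ N * W * z := Nat.mul_le_mul_right _ hinv
      _ = (N * z) * W := by ring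
      _ ≤ (3 * Nat.card (centralizer ({T} : Set (SU 3 F q)))) * W := Nat.mul_le_mul_right _ hnorm
      _ ≤ 3 * (q ^ 3 + 1) * W := Nat.mul_le_mul_right _ (Nat.mul_le_mul_left _ hC')
  have h6 : q ^ 3 * ((q + 1) * (q ^ 2 - 1) * (q ^ 3 + 1)) ≤ 3 * (q ^ 3 + 1) * ((q + 1) + q ^ 2 * (q ^ 3 + 1)) := by
    calc q ^ 3 * ((q + 1) * (q ^ 2 - 1) * (q ^ 3 + 1)) = (q + 1) * Nat.card (SU 3 F q) := hgu
      _ ≤ (q + 1) * (3 * (q ^ 3 + 1) * W) := Nat.mul_le_mul_left _ h5
      _ = 3 * (q ^ 3 + 1) * ((q + 1) * W) := by ring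
      _ ≤ _ := Nat.mul_le_mul_left _ hsq
  have h7 : q ^ 3 * ((q + 1) * (q ^ 2 - 1)) ≤ 3 * ((q + 1) + q ^ 2 * (q ^ 3 + 1)) := by
    have hpos : 0 < q ^ 3 + 1 := Nat.succ_pos _
    refine Nat.le_of_mul_le_mul_right ?_ hpos
    calc q ^ 3 * ((q + 1) * (q ^ 2 - 1)) * (q ^ 3 + 1) = q ^ 3 * ((q + 1) * (q ^ 2 - 1) * (q ^ 3 + 1)) := by ring
      _ ≤ _ := h6
      _ = _ := by ring
  have hq3 : 3 ≤ q := by
    by_contra hlt
    have h8 : q = 2 := by omega
    rw [h8] at hpq
    norm_num at hpq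
  obtain ⟨k, rfl⟩ := Nat.exists_eq_add_of_le hq3
  have h8 : (3 + k) ^ 2 - 1 = k ^ 2 + 6 * k + 8 := by
    have : (3 + k) ^ 2 = k ^ 2 + 6 * k + 8 + 1 := by ring
    rw [this, Nat.add_sub_cancel]
  rw [h8] at h7
  ring_nf at h7
  nlinarith [pow_pos (show (0:ℕ) < 3 by norm_num) k, Nat.zero_le (k ^ 2), Nat.zero_le (k ^ 3), Nat.zero_le (k ^ 4),
    Nat.zero_le (k ^ 5), Nat.zero_le (k ^ 6)]

end Main

end Cfsg.Agent.H880.Tor
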