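import Cfsg.Agent.H880.TorH

/-!
# S3235, row `PSU_n(q)` in cross characteristic (for helper103)

* `false_irr` : irreducible elements with `Pr p` do not exist;
* `row_psuCross` : the row.
-/

set_option autoImplicit false
set_option linter.unusedSectionVars false

namespace Cfsg.Agent.H880.Tor

open Matrix Subgroup Module Cfsg
open Cfsg.Agent.LieClassical.HermBasic Cfsg.Agent.LieClassical.HermSiegel
open Cfsg.Agent.ClassicalGeometry.PSUAutBasic Cfsg.Agent.ClassicalGeometry.HermOrtho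
open Cfsg.Agent.H880.Cl (toEnd toEnd_apply toEnd_injective)
open Cfsg.Agent.H103.Tor (Pr Cm cj Row)
open Cfsg.Agent.H333.SLTwoLine (exists_gen)

theorem false_irr {F : Type} [Field F] [Fintype F] {q m : ℕ} (hF : Fintype.card F = q ^ 2) (hm : 2 ≤ m) {r : ℕ}
    [Fact r.Prime] [CharP F r] {p : ℕ} (hp : p.Prime) (hp5 : 5 ≤ p) (hrp : r ≠ p) {g : SU m F q}
    (h : Pr p (zpowers (pr m F q g)))
    (hirr : ∀ W : Submodule F (Fin m → F), (∀ w ∈ W, act g w ∈ W) → W = ⊥ ∨ W = ⊤) : False := by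
  have hirr' : Irr (toEnd m F q g) := hirr
  obtain ⟨T, hTp, z, hz, hg⟩ := exists_lift hF hm hp hp5 h
  obtain ⟨c, hc0, hc⟩ := center_scalar hF hm hirr' hz
  have hpr : pr m F q g = pr m F q T := by rw [hg, map_mul, pr_eq_one_iff.2 hz, mul_one]
  rw [hpr] at h
  have hs : Irr (toEnd m F q T) := by
    intro W hW
    apply hirr W
    intro w hw
    rw [hg, act_mul, hc, act_smul]
    exact W.smul_mem _ (hW w hw)
  obtain ⟨hev, -, -⟩ := odd_dvd hF hm hp hrp hTp h hs
  rcases Nat.lt_or_ge m 5 with h5 | h5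
  · have h3 : m = 3 := by
      interval_cases m
      · exact absurd (by decide) hev
      · rfl
      · exact absurd (by decide) hev
    subst h3
    exact false_of_three hF hp hp5 hrp hTp h hs
  · exact false_of_five hF h5 hp hp5 hrp hTp h hs

theorem row_psu {F : Type} [Field F] [Fintype F] {q n : ℕ} (hF : Fintype.card F = q ^ 2) (hn : 3 ≤ n) {r : ℕ}
    [CharP F r] {p : ℕ} (hp : p.Prime) (hp5 : 5 ≤ p) (hrp : r ≠ p) : Row p (PSU n F q) := by
  intro A hA
  exfalso
  have hr : Fact r.Prime := ⟨CharP.char_is_prime F r⟩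
  obtain ⟨a, haA, -, hAa⟩ := exists_gen hp A hA.card
  obtain ⟨g, rfl⟩ := pr_surjective a
  subst hAa
  rcases irr_cases hF hn hp hp5 hrp hA with h | ⟨m, g', hm, h, hirr⟩
  · exact false_irr hF (by omega) hp hp5 hrp hA h
  · exact false_irr hF (by omega) hp hp5 hrp h hirr

/-- **The row `PSU_n(q)`, cross characteristic.** -/
theorem row_psuCross {p : ℕ} (hp : p.Prime) (hp5 : 5 ≤ p) {K : Type*} [Group K] [Finite K] [IsSimpleGroup K]
    (r : ℕ) (hr : r ≠ p) (h : Cfsg.IsPSUChar r K) : Row p K := by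
  obtain ⟨F, i1, i2, hr', n, q, hq, hn, -, ⟨e⟩⟩ := h
  exact Row.congr e.symm (row_psu hq hn hp hp5 hr)

end Cfsg.Agent.H880.Tor
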